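import Cfsg.Agent.OD.Pre
import Cfsg.Agent.H6.HNC.O0
set_option autoImplicit false
set_option maxRecDepth 100000
set_option Elab.async false
set_option linter.all false
namespace CfH6.HNC
open CfH6 CfH6.D MulAction
theorem iO0 : Rng (chkInvT (fun x => fO (Nat.succ x)) HSB.il 5 1408) 0 1408 := rng_of 0 11 0 1408 (by decide +kernel)
theorem rO0 : Rng (chkRelT (fun x => fO (Nat.succ x)) HSB.rels) 0 1408 := rng_of 0 11 0 1408 (by decide +kernel)
theorem dO0 : Rng (chkId fO) 0 1408 := rng_of 0 11 0 1408 (by decide +kernel)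
theorem sO0 : Rng (chkSl fO HSD.sa HSD.sb 11 0) 6 64 := rng_of 6 0 58 64 (by decide +kernel)
end CfH6.HNC
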